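import Cfsg.Agent.H67.OffRepl
import Cfsg.Agent.H46.Generation

/-! Quadratic subgroups which are normal in their normal closure. -/

set_option autoImplicit false

namespace Cfsg.Agent.H67Off

open Polynomial Module Subgroup

theorem exists_conj_not_norm {Γ : Type*} [Group Γ] [Finite Γ] {p : ℕ} [Fact p.Prime] (hp : IsPGroup p Γ)
    {A : Subgroup Γ} (h : ¬ closure {x | ∃ g, ∃ a ∈ A, x = g * a * g⁻¹} ≤ normalizer (A : Set Γ)) :
    ∃ g, ∃ a ∈ A, g * a * g⁻¹ ∉ normalizer (A : Set Γ) ∧ ∀ b ∈ A,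
      g * a * g⁻¹ * b * (g * a * g⁻¹)⁻¹ ∈ normalizer (A : Set Γ) ∧
        (g * a * g⁻¹)⁻¹ * b * (g * a * g⁻¹) ∈ normalizer (A : Set Γ) := by
  obtain ⟨P, ⟨h1, h2, h3⟩, hmin⟩ := (wellFounded_lt (α := Subgroup Γ)).has_min
    {P | A ≤ P ∧ P ≤ closure ((P : Set Γ) ∩ {x | ∃ g, ∃ a ∈ A, x = g * a * g⁻¹}) ∧ ¬ P ≤ normalizer (A : Set Γ)}
    ⟨closure {x | ∃ g, ∃ a ∈ A, x = g * a * g⁻¹}, fun a ha => Subgroup.subset_closure ⟨1, a, ha, by simp⟩,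
      Subgroup.closure_mono fun x hx => ⟨Subgroup.subset_closure hx, hx⟩, h⟩
  have hAP : A < P := lt_of_le_of_ne h1 fun e => h3 (e ▸ le_normalizer)
  obtain ⟨M, ⟨m1, m2⟩, hmax⟩ := (wellFounded_gt (α := Subgroup Γ)).has_min {M | A ≤ M ∧ M < P} ⟨A, le_rfl, hAP⟩
  have m3 := H46.lt_inf_normalizer_of_isPGroup (hp.to_subgroup P) m2
  have m4 : P ≤ normalizer (M : Set Γ) := by
    by_contra hn
    exact hmax _ ⟨m1.trans m3.le, lt_of_le_of_ne inf_le_left fun e => hn (e.ge.trans inf_le_right)⟩ m3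
  have k : closure {x | ∃ y ∈ P, ∃ b ∈ A, x = y * b * y⁻¹} ≤ normalizer (A : Set Γ) := by
    by_contra hn
    refine hmin (closure {x | ∃ y ∈ P, ∃ b ∈ A, x = y * b * y⁻¹}) ⟨fun a ha => Subgroup.subset_closure ⟨1, one_mem _, a, ha, by simp⟩, Subgroup.closure_mono fun x hx =>
      ⟨Subgroup.subset_closure hx, ?_⟩, hn⟩ (lt_of_le_of_lt ((closure_le _).2 ?_) m2)
    · obtain ⟨y, -, b, hb, e⟩ := hx
      exact ⟨y, b, hb, e⟩
    · rintro _ ⟨y, hy, b, hb, rfl⟩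
      exact (mem_normalizer_iff.1 (m4 hy) b).1 (m1 hb)
  by_contra hn
  refine h3 (h2.trans ((closure_le _).2 ?_))
  rintro _ ⟨hx, g, a, ha, rfl⟩
  by_contra hx'
  exact hn ⟨g, a, ha, hx', fun b hb => ⟨k (Subgroup.subset_closure ⟨_, hx, b, hb, rfl⟩),
    k (Subgroup.subset_closure ⟨_, inv_mem hx, b, hb, by rw [inv_inv]⟩)⟩⟩

variable {F R Γ : Type*} [Field F] [Ring R] [Algebra F R] [Group Γ] {ρ : Γ →* R} {Y : Submodule F R}

theorem rho_inv {y : Γ} (h : (ρ y - 1) * (ρ y - 1) = 0) : ρ y⁻¹ = 1 - (ρ y - 1) := by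
  have e : ρ y * (1 - (ρ y - 1)) = 1 := by
    have : ρ y * (1 - (ρ y - 1)) = 1 - (ρ y - 1) * (ρ y - 1) := by noncomm_ring
    rw [this, h, sub_zero]
  calc _ = ρ y⁻¹ * (ρ y * (1 - (ρ y - 1))) := by rw [e, mul_one]
    _ = _ := by rw [← mul_assoc, ← map_mul, inv_mul_cancel, map_one, one_mul]

theorem rho_conj {y : Γ} (h : (ρ y - 1) * (ρ y - 1) = 0) (b : Γ) :
    ρ (y⁻¹ * b * y) - 1 = cz (ρ y - 1) (1 : F) (ρ b - 1) ∧
      ρ (y * b * y⁻¹) - 1 = cz (ρ y - 1) (-1 : F) (ρ b - 1) := by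
  have e1 : ρ y⁻¹ * ρ y = 1 := by rw [← map_mul, inv_mul_cancel, map_one]
  have e2 : ρ y * ρ y⁻¹ = 1 := by rw [← map_mul, mul_inv_cancel, map_one]
  constructor
  · rw [cz, one_smul, ← rho_inv h, add_sub_cancel, map_mul, map_mul, mul_sub, sub_mul, mul_one, e1]
  · rw [cz, neg_one_smul, sub_neg_eq_add, ← sub_eq_add_neg, ← rho_inv h, add_sub_cancel, map_mul, map_mul,
      mul_sub, sub_mul, mul_one, e2]

/-- the subgroup belonging to a square zero subspace -/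
def Qd.grp (q : Qd (MonoidHom.mrange ρ) Y) : Subgroup Γ where
  carrier := {g | ρ g - 1 ∈ Y}
  one_mem' := by simp
  mul_mem' := by
    intro a b ha hb
    have : ρ (a * b) - 1 = (ρ a - 1) + (ρ b - 1) + (ρ a - 1) * (ρ b - 1) := by rw [map_mul]; noncomm_ring
    rw [Set.mem_setOf_eq, this, q.sq _ ha _ hb, add_zero]
    exact add_mem ha hb
  inv_mem' := by
    intro a ha
    rw [Set.mem_setOf_eq, rho_inv (q.sq _ ha _ ha), sub_sub_cancel_left]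
    exact neg_mem ha

theorem Qd.mem_grp (q : Qd (MonoidHom.mrange ρ) Y) {g : Γ} : g ∈ q.grp ↔ ρ g - 1 ∈ Y := Iff.rfl

theorem Qd.ex (q : Qd (MonoidHom.mrange ρ) Y) {α : R} (h : α ∈ Y) : ∃ g ∈ q.grp, ρ g - 1 = α := by
  obtain ⟨g, hg⟩ := q.mem α h
  have : ρ g - 1 = α := by rw [hg, add_sub_cancel_left]
  exact ⟨g, q.mem_grp.2 (this ▸ h), this⟩

theorem Qd.card_grp (q : Qd (MonoidHom.mrange ρ) Y) (hρ : Function.Injective ρ) : Nat.card q.grp = Nat.card Y :=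
  Nat.card_congr (Equiv.ofBijective (fun g : q.grp => (⟨ρ g - 1, g.2⟩ : Y)) ⟨fun a b e =>
    Subtype.ext (hρ (sub_left_injective (congrArg Subtype.val e))), fun α =>
      (q.ex α.2).elim fun g hg => ⟨⟨g, hg.1⟩, Subtype.ext hg.2⟩⟩)

theorem Qd.br_of_norm (q : Qd (MonoidHom.mrange ρ) Y) (h2 : (2 : F) ≠ 0) {y : Γ}
    (hy : y ∈ normalizer (q.grp : Set Γ)) (h : (ρ y - 1) * (ρ y - 1) = 0) :
    ∀ α ∈ Y, α * (ρ y - 1) - (ρ y - 1) * α ∈ Y := by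
  intro α ha
  obtain ⟨b, hb, rfl⟩ := q.ex ha
  have e1 := q.mem_grp.1 ((mem_normalizer_iff.1 hy b).1 hb)
  have e2 := q.mem_grp.1 ((mem_normalizer_iff''.1 hy b).1 hb)
  rw [(rho_conj (F := F) h b).2] at e1
  rw [(rho_conj (F := F) h b).1] at e2
  convert Y.smul_mem (2⁻¹ : F) (sub_mem e2 e1) using 1
  rw [cz_eq, cz_eq]
  match_scalars <;> field_simp <;> norm_num

theorem Qd.norm_of_br [Finite Γ] (q : Qd (MonoidHom.mrange ρ) Y) (h2 : (2 : F) ≠ 0) {y : Γ}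
    (h : (ρ y - 1) * (ρ y - 1) = 0) (hb : ∀ α ∈ Y, α * (ρ y - 1) - (ρ y - 1) * α ∈ Y) :
    y ∈ normalizer (q.grp : Set Γ) := by
  refine mem_normalizer_fintype fun b hb' => q.mem_grp.2 ?_
  have hb' := q.mem_grp.1 hb'
  rw [(rho_conj (F := F) h b).2, cz_eq]
  generalize ρ y - 1 = ξ at *
  generalize ρ b - 1 = α at *
  refine sub_mem (add_mem hb' (Y.smul_mem _ (hb _ hb'))) (Y.smul_mem _ ?_)
  have := Y.smul_mem (-2⁻¹ : F) (hb _ (hb _ hb'))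
  rw [sub_mul, mul_sub, mul_assoc α, h, ← mul_assoc, ← mul_assoc, h, mul_zero, zero_mul] at this
  convert this using 1
  match_scalars
  field_simp
  norm_num

theorem Qd.exists_norm [Finite Γ] [FiniteDimensional F R] {p : ℕ} [Fact p.Prime] (hp : IsPGroup p Γ)
    (h2 : (2 : F) ≠ 0) {Fl : ℕ → Submodule F R} (anti : Antitone Fl) {N : ℕ} (hN : Fl N = ⊥)
    (h0 : ∀ g, ρ g - 1 ∈ Fl 0)
    (hs : ∀ g i, ∀ φ ∈ Fl i, (ρ g - 1) * φ ∈ Fl (i + 1) ∧ φ * (ρ g - 1) ∈ Fl (i + 1))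
    (q : Qd (MonoidHom.mrange ρ) Y) :
    ∃ (Y' : Submodule F R) (q' : Qd (MonoidHom.mrange ρ) Y'), finrank F Y ≤ finrank F Y' ∧
      finrank F (ann Y) ≤ finrank F (ann Y') ∧
        closure {x | ∃ g, ∃ a ∈ q'.grp, x = g * a * g⁻¹} ≤ normalizer (q'.grp : Set Γ) := by
  by_contra hn
  push Not at hn
  have key : ∀ n : ℕ, ∃ Y' : Submodule F R, Qd (MonoidHom.mrange ρ) Y' ∧ finrank F Y ≤ finrank F Y' ∧
      finrank F (ann Y) ≤ finrank F (ann Y') ∧ n ≤ ∑ i ∈ Finset.range (N + 1), finrank F ↥(Y' ⊓ Fl i) := by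
    intro n
    induction n with
    | zero => exact ⟨Y, q, le_rfl, le_rfl, Nat.zero_le _⟩
    | succ n ih =>
      obtain ⟨Z, z, z1, z2, z3⟩ := ih
      obtain ⟨g, a, ha, x1, x2⟩ := exists_conj_not_norm hp (hn Z z z1 z2)
      have e1 : ρ g⁻¹ * ρ g = 1 := by rw [← map_mul, inv_mul_cancel, map_one]
      have e2 : ρ g * ρ g⁻¹ = 1 := by rw [← map_mul, mul_inv_cancel, map_one]
      have e3 : ρ (g * a * g⁻¹) - 1 = ρ g * (ρ a - 1) * ρ g⁻¹ := by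
        rw [map_mul, map_mul, mul_sub, sub_mul, mul_one, e2]
      have hξ : (ρ (g * a * g⁻¹) - 1) * (ρ (g * a * g⁻¹) - 1) = 0 := by
        have : ρ g * (ρ a - 1) * ρ g⁻¹ * (ρ g * (ρ a - 1) * ρ g⁻¹) =
          ρ g * ((ρ a - 1) * (ρ g⁻¹ * ρ g) * (ρ a - 1)) * ρ g⁻¹ := by simp only [mul_assoc]
        rw [e3, this, e1, mul_one, z.sq _ ha _ ha, mul_zero, zero_mul]
      have hD : ∀ s : F, 1 + s • (ρ (g * a * g⁻¹) - 1) ∈ MonoidHom.mrange ρ := fun s => by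
        have : 1 + s • (ρ (g * a * g⁻¹) - 1) = ρ g * (1 + s • (ρ a - 1)) * ρ g⁻¹ := by
          rw [e3, mul_add, add_mul, mul_one, e2, mul_smul_comm, smul_mul_assoc]
        rw [this]
        exact mul_mem (mul_mem ⟨g, rfl⟩ (z.mem _ (Z.smul_mem s ha))) ⟨_, rfl⟩
      generalize g * a * g⁻¹ = x at *
      have sq : ∀ (t : F), ∀ β ∈ Z, cz (ρ x - 1) t β * cz (ρ x - 1) t β = 0 := fun t β hb => by
        rw [← cz_mul hξ, z.sq β hb β hb, cz, mul_zero, zero_mul]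
      refine ⟨_, z.repl h2 hξ hD (fun α ha β hb => ?_) (fun α ha β hb => ?_), z1.trans (le_lim hξ Z),
        z2.trans (ann_le_lim hξ Z), Nat.succ_le_of_lt (z3.trans_lt (sum_lt_lim h2 hξ anti hN (fun α ha => ?_)
          (hs x) fun hb => x1 (z.norm_of_br h2 hξ hb)))⟩
      · obtain ⟨b, hb', rfl⟩ := z.ex hb
        have := sq 1 _ hb
        rw [← (rho_conj hξ b).1] at this ⊢
        exact z.br_of_norm h2 (x2 b hb').2 this α ha
      · obtain ⟨b, hb', rfl⟩ := z.ex hb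
        have := sq (-1) _ hb
        rw [← (rho_conj hξ b).2] at this ⊢
        exact z.br_of_norm h2 (x2 b hb').1 this α ha
      · obtain ⟨b, -, rfl⟩ := z.ex ha
        exact h0 b
  obtain ⟨Z, -, -, -, hz⟩ := key ((N + 1) * finrank F R + 1)
  have : ∑ i ∈ Finset.range (N + 1), finrank F ↥(Z ⊓ Fl i) ≤ (N + 1) * finrank F R :=
    (Finset.sum_le_card_nsmul _ _ _ fun i _ => Submodule.finrank_le _).trans (by simp)
  omega

end Cfsg.Agent.H67Off
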