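import Mathlib

/-! Limits of polynomial families of subspaces of a finite dimensional algebra. -/

set_option autoImplicit false

namespace Cfsg.Agent.H67Off

open Polynomial Module

variable {F R : Type*} [Field F] [Ring R] [Algebra F R]

theorem finrank_le_of_coeff [FiniteDimensional F R] {N : Type*} [AddCommGroup N] [Module F N]
    [FiniteDimensional F N] (Φ : N →ₗ[F] R[X]) (hΦ : Function.Injective Φ) (Z : Submodule F R)
    (hZ : ∀ x d, (Φ x).natDegree ≤ d → (Φ x).coeff d ∈ Z) :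
    ∀ (j : ℕ) (M : Submodule F N), (∀ x ∈ M, ∀ i, j ≤ i → (Φ x).coeff i = 0) →
      finrank F M ≤ j * finrank F Z := by
  intro j
  induction j with
  | zero =>
    intro M hM
    have : M = ⊥ := (Submodule.eq_bot_iff _).2 fun x hx => hΦ (by
      rw [map_zero]; ext i; exact hM x hx i (Nat.zero_le _))
    simp [this]
  | succ j ih =>
    intro M hM
    let c : M →ₗ[F] Z := LinearMap.codRestrict Z (((lcoeff R j).restrictScalars F) ∘ₗ Φ ∘ₗ M.subtype)
      fun x => hZ x j (natDegree_le_iff_coeff_eq_zero.2 fun i hi => hM x x.2 i hi)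
    have h1 := LinearMap.finrank_range_add_finrank_ker c
    have h2 : finrank F (LinearMap.range c) ≤ finrank F Z := Submodule.finrank_le _
    have h3 := ih ((LinearMap.ker c).map M.subtype) (by
      rintro _ ⟨x, hx, rfl⟩ i hi
      rcases hi.eq_or_lt with rfl | hi
      · exact congrArg Subtype.val (LinearMap.mem_ker.1 hx)
      · exact hM x x.2 i hi)
    rw [Submodule.finrank_map_subtype_eq] at h3
    rw [add_mul, one_mul]
    omega

theorem lim_lift {a b y : R[X]} {Y : Submodule F R} {d : ℕ} (hy : ∀ i, y.coeff i ∈ Y)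
    (hd : (a * y * b).natDegree ≤ d) (k : ℕ) : ∃ y' : R[X], (∀ i, y'.coeff i ∈ Y) ∧
      (a * y' * b).natDegree ≤ d + k ∧ (a * y' * b).coeff (d + k) = (a * y * b).coeff d := by
  have e : a * (y * X ^ k) * b = a * y * b * X ^ k := by
    rw [mul_assoc, mul_assoc, X_pow_mul]; simp only [mul_assoc]
  refine ⟨y * X ^ k, fun i => ?_, ?_, ?_⟩
  · rw [coeff_mul_X_pow']
    split_ifs
    exacts [hy _, zero_mem _]
  · rw [e]
    exact natDegree_mul_le_of_le hd (natDegree_X_pow_le k)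
  · rw [e, coeff_mul_X_pow]

/-- the leading coefficients of the polynomials `a * y * b`, `y` with coefficients in `Y` -/
def lim (a b : R[X]) (Y : Submodule F R) : Submodule F R where
  carrier := {c | ∃ (d : ℕ) (y : R[X]), (∀ i, y.coeff i ∈ Y) ∧ (a * y * b).natDegree ≤ d ∧
    (a * y * b).coeff d = c}
  add_mem' := by
    rintro _ _ ⟨d, y, h1, h2, rfl⟩ ⟨e, z, k1, k2, rfl⟩
    obtain ⟨y', h1', h2', h3⟩ := lim_lift h1 h2 e
    obtain ⟨z', k1', k2', k3⟩ := lim_lift k1 k2 d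
    rw [add_comm e d] at k2' k3
    refine ⟨d + e, y' + z', fun i => ?_, ?_, ?_⟩
    · rw [coeff_add]; exact add_mem (h1' i) (k1' i)
    · rw [mul_add, add_mul]; exact natDegree_add_le_of_degree_le h2' k2'
    · rw [mul_add, add_mul, coeff_add, h3, k3]
  zero_mem' := ⟨0, 0, by simp, by simp, by simp⟩
  smul_mem' := by
    rintro r _ ⟨d, y, h1, h2, rfl⟩
    refine ⟨d, r • y, fun i => ?_, ?_, ?_⟩
    · rw [coeff_smul]; exact Y.smul_mem r (h1 i)
    · rw [mul_smul_comm, smul_mul_assoc]; exact (natDegree_smul_le _ _).trans h2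
    · rw [mul_smul_comm, smul_mul_assoc, coeff_smul]

theorem lim_mono (a b : R[X]) {Y Z : Submodule F R} (h : Y ≤ Z) : lim a b Y ≤ lim a b Z := by
  rintro _ ⟨d, y, h1, h2, rfl⟩
  exact ⟨d, y, fun i => h (h1 i), h2, rfl⟩

theorem lim_arith {m n z : ℕ} (key : (m * n + 1) * n ≤ (m * n + m + 1) * z) : n ≤ z := by
  by_contra hlt
  obtain ⟨e, rfl⟩ := Nat.exists_eq_add_of_lt (not_le.1 hlt)
  nlinarith [Nat.zero_le (m * e), Nat.zero_le (m * z), Nat.zero_le (m * e * e), Nat.zero_le (m * z * e)]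

/-- polynomials with given coefficients -/
noncomputable def psi (Y : Submodule F R) (d : ℕ) : (Fin (d + 1) → Y) →ₗ[F] R[X] where
  toFun y := ∑ i : Fin (d + 1), monomial (i : ℕ) (y i : R)
  map_add' y z := by
    rw [← Finset.sum_add_distrib]
    exact Finset.sum_congr rfl fun i _ => by rw [← map_add]; rfl
  map_smul' r y := by
    rw [RingHom.id_apply, Finset.smul_sum]
    exact Finset.sum_congr rfl fun i _ => by rw [smul_monomial]; rfl

theorem psi_coeff (Y : Submodule F R) (d : ℕ) (y : Fin (d + 1) → Y) (k : ℕ) :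
    (psi Y d y).coeff k = ∑ i : Fin (d + 1), if (i : ℕ) = k then (y i : R) else 0 := by
  change (∑ i : Fin (d + 1), monomial (i : ℕ) (y i : R)).coeff k = _
  rw [finset_sum_coeff]
  exact Finset.sum_congr rfl fun i _ => coeff_monomial

theorem finrank_le_lim [FiniteDimensional F R] {a b : R[X]} (hi : ∀ y, a * y * b = 0 → y = 0)
    (Y : Submodule F R) : finrank F Y ≤ finrank F (lim a b Y) := by
  obtain ⟨m, hm⟩ : ∃ m, m = a.natDegree + b.natDegree := ⟨_, rfl⟩
  obtain ⟨d, hd⟩ : ∃ d, d = m * finrank F Y := ⟨_, rfl⟩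
  have c1 : ∀ y (i : Fin (d + 1)), (psi Y d y).coeff i = y i := fun y i => by
    rw [psi_coeff]
    simp only [Fin.val_inj, Finset.sum_ite_eq', Finset.mem_univ, if_true]
  have c2 : ∀ y k, (psi Y d y).coeff k ∈ Y := fun y k => by
    rw [psi_coeff]
    refine sum_mem fun i _ => ?_
    split_ifs
    exacts [(y i).2, zero_mem _]
  have c3 : ∀ y, (psi Y d y).natDegree ≤ d := fun y =>
    natDegree_le_iff_coeff_eq_zero.2 fun k hk => by
      rw [psi_coeff]
      exact Finset.sum_eq_zero fun i _ => if_neg (by have := i.2; omega)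
  have ev : ∀ y, (LinearMap.mulLeftRight F (a, b) ∘ₗ psi Y d) y = a * psi Y d y * b := fun _ => rfl
  have key := finrank_le_of_coeff (LinearMap.mulLeftRight F (a, b) ∘ₗ psi Y d)
    ((injective_iff_map_eq_zero _).2 fun y hy => by
      rw [ev] at hy
      have := hi _ hy
      funext i
      apply Subtype.ext
      rw [← c1, this]; rfl)
    (lim a b Y) (fun y k hk => ⟨k, psi Y d y, c2 y, hk, rfl⟩) (d + m + 1) ⊤ fun y _ i hi => by
      apply coeff_eq_zero_of_natDegree_lt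
      have : (a * psi Y d y * b).natDegree ≤ a.natDegree + d + b.natDegree :=
        natDegree_mul_le_of_le (natDegree_mul_le_of_le le_rfl (c3 y)) le_rfl
      rw [ev]
      omega
  rw [finrank_top, Module.finrank_pi_fintype] at key
  simp only [Finset.sum_const, Finset.card_univ, Fintype.card_fin, smul_eq_mul] at key
  rw [hd] at key
  exact lim_arith key

theorem lim_mul {a b a' b' : R[X]} (h : b * a' = 1) {Y Y' : Submodule F R}
    (hY : ∀ y ∈ Y, ∀ y' ∈ Y', y * y' = 0) : ∀ c ∈ lim a b Y, ∀ c' ∈ lim a' b' Y', c * c' = 0 := by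
  rintro _ ⟨d, y, h1, h2, rfl⟩ _ ⟨e, z, k1, k2, rfl⟩
  rw [← coeff_mul_add_eq_of_natDegree_le h2 k2]
  have e1 : y * z = 0 := by
    ext i
    rw [coeff_mul]
    exact Finset.sum_eq_zero fun x _ => hY _ (h1 _) _ (k1 _)
  have : a * y * b * (a' * z * b') = a * (y * (b * a') * z) * b' := by simp only [mul_assoc]
  rw [this, h, mul_one, e1, mul_zero, zero_mul, coeff_zero]

/-- `1 + ξ X` -/
noncomputable def up (ξ : R) : R[X] := 1 + C ξ * X

theorem up_mul {ξ : R} (h : ξ * ξ = 0) : up ξ * up (-ξ) = 1 := by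
  have : C ξ * X * (C ξ * X) = 0 := by
    rw [mul_assoc, ← mul_assoc X, X_mul, ← mul_assoc, ← mul_assoc, ← C_mul, h]; simp
  simp only [up, C_neg, neg_mul, mul_add, add_mul, one_mul, mul_one, mul_neg, this]
  abel

theorem up_mul' {ξ : R} (h : ξ * ξ = 0) : up (-ξ) * up ξ = 1 := by
  have := up_mul (ξ := -ξ) (by simpa using h)
  rwa [neg_neg] at this

theorem conj_eq (ξ : R) (y : R[X]) : up (-ξ) * y * up ξ =
    y + (y * C ξ - C ξ * y) * X ^ 1 + -(C ξ * y * C ξ) * X ^ 2 := by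
  have e1 : C ξ * X * y = C ξ * y * X := by rw [mul_assoc, X_mul, mul_assoc]
  have e2 : C ξ * y * X * (C ξ * X) = C ξ * y * C ξ * X ^ 2 := by
    rw [mul_assoc, ← mul_assoc X, X_mul, pow_two]; simp only [mul_assoc]
  have e3 : y * (C ξ * X) = y * C ξ * X := (mul_assoc _ _ _).symm
  rw [up, up, C_neg, neg_mul, add_mul, one_mul, neg_mul, e1, mul_add, mul_one, add_mul, neg_mul, e2, e3, pow_one,
    sub_mul, neg_mul]
  abel

theorem lim_le {ξ : R} {Y : Submodule F R} {M : AddSubmonoid R}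
    (h : ∀ α ∈ Y, α ∈ M ∧ α * ξ - ξ * α ∈ M ∧ -(ξ * α * ξ) ∈ M) {c : R} (hc : c ∈ lim (up (-ξ)) (up ξ) Y) :
    c ∈ M := by
  obtain ⟨d, y, h1, -, rfl⟩ := hc
  rw [conj_eq, coeff_add, coeff_add, coeff_mul_X_pow', coeff_mul_X_pow']
  refine add_mem (add_mem (h _ (h1 _)).1 ?_) ?_ <;> split_ifs
  · rw [coeff_sub, coeff_mul_C, coeff_C_mul]; exact (h _ (h1 _)).2.1
  · exact zero_mem _
  · rw [coeff_neg, coeff_mul_C, coeff_C_mul]; exact (h _ (h1 _)).2.2
  · exact zero_mem _

theorem mem_lim_two {ξ α : R} {Y : Submodule F R} (h : α ∈ Y) : -(ξ * α * ξ) ∈ lim (up (-ξ)) (up ξ) Y := by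
  refine ⟨2, C α, fun i => ?_, ?_, ?_⟩
  · rw [coeff_C]; split_ifs; exacts [h, zero_mem _]
  · rw [conj_eq, ← C_mul, ← C_mul, ← C_mul, ← C_sub, ← C_neg]
    compute_degree
  · rw [conj_eq, ← C_mul, ← C_mul, ← C_mul, ← C_sub, ← C_neg, coeff_add, coeff_add, coeff_C_mul_X_pow,
      coeff_C_mul_X_pow, coeff_C]
    simp

theorem mem_lim_one {ξ α : R} (hξ : ξ * ξ = 0) {Y : Submodule F R} (h : α ∈ Y) (h2 : ξ * α * ξ ∈ Y) :
    α * ξ - ξ * α ∈ lim (up (-ξ)) (up ξ) Y := by
  have e : up (-ξ) * (C α + C (ξ * α * ξ) * X ^ 2) * up ξ = C α + C (α * ξ - ξ * α) * X := by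
    have e1 : up (-ξ) * (C (ξ * α * ξ) * X ^ 2) * up ξ = up (-ξ) * C (ξ * α * ξ) * up ξ * X ^ 2 := by
      rw [mul_assoc, mul_assoc, X_pow_mul]; simp only [mul_assoc]
    have z1 : ξ * α * ξ * ξ = 0 := by rw [mul_assoc, hξ, mul_zero]
    have z2 : ξ * (ξ * α * ξ) = 0 := by rw [← mul_assoc, ← mul_assoc, hξ, zero_mul, zero_mul]
    rw [mul_add, add_mul, e1, conj_eq, conj_eq]
    simp only [← C_mul, z1, z2, zero_mul, C_0, sub_zero, neg_zero, add_zero, ← C_sub, pow_one, neg_mul]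
    abel
  refine ⟨1, C α + C (ξ * α * ξ) * X ^ 2, fun i => ?_, ?_, ?_⟩
  · rw [coeff_add, coeff_C, coeff_C_mul, coeff_X_pow]
    refine add_mem ?_ ?_ <;> split_ifs
    exacts [h, zero_mem _, by rwa [mul_one], by simp]
  · rw [e]; compute_degree
  · rw [e, coeff_add, coeff_C_mul_X, coeff_C]; simp

end Cfsg.Agent.H67Off
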