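import Cfsg.Agent.H67.OffLim

/-! Replacement of a square zero subspace by the limit of its conjugates. -/

set_option autoImplicit false

namespace Cfsg.Agent.H67Off

open Polynomial Module

variable {F R : Type*} [Field F] [Ring R] [Algebra F R] {D : Submonoid R} {Y : Submodule F R} {ξ : R}

/-- a square zero subspace `Y` with `1 + Y ⊆ D` -/
structure Qd (D : Submonoid R) (Y : Submodule F R) : Prop where
  sq : ∀ α ∈ Y, ∀ β ∈ Y, α * β = 0
  mem : ∀ α ∈ Y, 1 + α ∈ D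

/-- the right annihilator -/
def ann (Y : Submodule F R) : Submodule F R where
  carrier := {φ | ∀ α ∈ Y, α * φ = 0}
  add_mem' ha hb α h := by rw [mul_add, ha α h, hb α h, add_zero]
  zero_mem' α _ := mul_zero α
  smul_mem' r φ hφ α h := by rw [mul_smul_comm, hφ α h, smul_zero]

/-- conjugation by `1 + t ξ` -/
def cz (ξ : R) (t : F) (α : R) : R := (1 - t • ξ) * α * (1 + t • ξ)

theorem cz_eq (t : F) (α : R) : cz ξ t α = α + t • (α * ξ - ξ * α) - (t * t) • (ξ * α * ξ) := by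
  simp only [cz, mul_add, sub_mul, mul_one, one_mul, mul_smul_comm, smul_mul_assoc]
  module

theorem cz_mid (hξ : ξ * ξ = 0) (s t : F) : (1 + s • ξ) * (1 - t • ξ) = 1 + (s - t) • ξ := by
  simp only [mul_sub, add_mul, mul_one, one_mul, mul_smul_comm, smul_mul_assoc, hξ, smul_zero]
  module

theorem cz_mul (hξ : ξ * ξ = 0) (s : F) (α β : R) : cz ξ s (α * β) = cz ξ s α * cz ξ s β := by
  have : cz ξ s α * cz ξ s β = (1 - s • ξ) * α * ((1 + s • ξ) * (1 - s • ξ)) * β * (1 + s • ξ) := by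
    simp only [cz, mul_assoc]
  rw [this, cz_mid hξ, sub_self, zero_smul, add_zero, mul_one, cz, mul_assoc _ α β]

theorem cz_cz (hξ : ξ * ξ = 0) (s r : F) (β : R) : cz ξ s (cz ξ r β) = cz ξ (s + r) β := by
  have e1 : (1 - s • ξ) * (1 - r • ξ) = 1 - (s + r) • ξ := by
    simp only [mul_sub, sub_mul, mul_one, one_mul, mul_smul_comm, smul_mul_assoc, hξ, smul_zero]
    module
  have e2 : (1 + r • ξ) * (1 + s • ξ) = 1 + (s + r) • ξ := by
    simp only [mul_add, add_mul, mul_one, one_mul, mul_smul_comm, smul_mul_assoc, hξ, smul_zero]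
    module
  rw [cz, cz, cz, ← e1, ← e2]
  simp only [mul_assoc]

theorem cz_smul (s r : F) (β : R) : cz ξ s (r • β) = r • cz ξ s β := by
  rw [cz, cz, mul_smul_comm, smul_mul_assoc]

theorem cz_sub (s : F) (α β : R) : cz ξ s (α - β) = cz ξ s α - cz ξ s β := by
  rw [cz, cz, cz, mul_sub, sub_mul]

theorem cz_mem (hξ : ξ * ξ = 0) (hD : ∀ s : F, 1 + s • ξ ∈ D) (s : F) {α : R} (h : 1 + α ∈ D) :
    1 + cz ξ s α ∈ D := by
  have e : (1 + (-s) • ξ) * (1 - (-s) • ξ) = 1 := by rw [cz_mid hξ, sub_self, zero_smul, add_zero]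
  have : 1 + cz ξ s α = (1 + (-s) • ξ) * (1 + α) * (1 + s • ξ) := by
    rw [neg_smul, sub_neg_eq_add] at e
    rw [neg_smul, mul_add _ 1 α, mul_one, add_mul _ (_ * α), e, cz, sub_eq_add_neg]
  rw [this]
  exact mul_mem (mul_mem (hD _) h) (hD _)

theorem Qd.repl (q : Qd D Y) (h2 : (2 : F) ≠ 0) (hξ : ξ * ξ = 0) (hD : ∀ s : F, 1 + s • ξ ∈ D)
    (h1 : ∀ α ∈ Y, ∀ β ∈ Y, α * cz ξ (1 : F) β - cz ξ (1 : F) β * α ∈ Y)
    (h1' : ∀ α ∈ Y, ∀ β ∈ Y, α * cz ξ (-1 : F) β - cz ξ (-1 : F) β * α ∈ Y) :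
    Qd D (lim (up (-ξ)) (up ξ) Y) := by
  obtain ⟨h, hh⟩ : ∃ h : F, h + h = 1 := ⟨2⁻¹, by field_simp; norm_num⟩
  have br : ∀ (t : F), ∀ α ∈ Y, ∀ β ∈ Y, α * cz ξ t β - cz ξ t β * α ∈ Y := by
    intro t α ha β hb
    have e := Y.add_mem (Y.smul_mem (h * (t * t + t)) (h1 α ha β hb)) (Y.smul_mem (h * (t * t - t)) (h1' α ha β hb))
    convert e using 1
    simp only [cz_eq, mul_add, mul_sub, add_mul, sub_mul, mul_smul_comm, smul_mul_assoc, q.sq α ha β hb,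
      q.sq β hb α ha]
    match_scalars <;> first | linear_combination (t * t) * hh | linear_combination (-(t * t)) * hh |
      linear_combination t * hh | linear_combination (-t) * hh
  have five : ∀ α ∈ Y, ∀ β ∈ Y, ∀ γ ∈ Y, α * ξ * β * ξ * γ = 0 := by
    intro α ha β hb γ hc
    have e := q.sq _ (h1 α ha β hb) γ hc
    rw [sub_mul, mul_assoc _ α γ, q.sq α ha γ hc, mul_zero, sub_zero, cz, one_smul, ← mul_assoc, ← mul_assoc,
      mul_sub, mul_one, sub_mul, q.sq α ha β hb, zero_sub, mul_assoc, add_mul, one_mul, mul_add, neg_mul,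
      mul_assoc _ β γ, q.sq β hb γ hc, mul_zero, neg_zero, zero_add, neg_mul, neg_eq_zero, ← mul_assoc] at e
    exact e
  have trip : ∀ (s t r : F), ∀ α ∈ Y, ∀ β ∈ Y, ∀ γ ∈ Y, cz ξ s α * cz ξ t β * cz ξ r γ = 0 := by
    intro s t r α ha β hb γ hc
    have : cz ξ s α * cz ξ t β * cz ξ r γ = (1 - s • ξ) * (α * ((1 + s • ξ) * (1 - t • ξ)) * β *
      ((1 + t • ξ) * (1 - r • ξ)) * γ) * (1 + r • ξ) := by simp only [cz, mul_assoc]
    have z : α * (1 + (s - t) • ξ) * β * (1 + (t - r) • ξ) * γ = 0 := by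
      have z1 : α * ξ * β * γ = 0 := by rw [mul_assoc _ β γ, q.sq β hb γ hc, mul_zero]
      simp only [mul_add, add_mul, mul_one, mul_smul_comm, smul_mul_assoc, five α ha β hb γ hc, smul_zero, zero_mul,
        q.sq α ha β hb, z1, add_zero]
    rw [this, cz_mid hξ, cz_mid hξ, z, mul_zero, zero_mul]
  obtain ⟨M, hM⟩ : ∃ M, M = AddSubmonoid.closure {μ | ∃ s : F, ∃ α ∈ Y, μ = cz ξ s α} := ⟨_, rfl⟩
  have gen : ∀ (s : F), ∀ α ∈ Y, cz ξ s α ∈ M := fun s α ha =>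
    hM ▸ AddSubmonoid.subset_closure ⟨s, α, ha, rfl⟩
  have ind : ∀ P : R → Prop, P 0 → (∀ (s : F), ∀ α ∈ Y, P (cz ξ s α)) →
      (∀ μ ∈ M, ∀ ν ∈ M, P μ → P ν → P (μ + ν)) → ∀ μ ∈ M, P μ := by
    intro P p0 p1 p2 μ hμ
    subst hM
    induction hμ using AddSubmonoid.closure_induction with
    | mem x hx => obtain ⟨s, α, ha, rfl⟩ := hx; exact p1 s α ha
    | zero => exact p0
    | add x y hx hy ihx ihy => exact p2 x hx y hy ihx ihy
  have m3 : ∀ μ ∈ M, ∀ ν ∈ M, ∀ κ ∈ M, μ * ν * κ = 0 := by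
    refine ind _ (by simp) (fun s α ha => ind _ (by simp) (fun t β hb => ind _ (by simp)
      (fun r γ hc => trip s t r α ha β hb γ hc) ?_) ?_) ?_
    · intro x _ y _ hx hy
      rw [mul_add, hx, hy, add_zero]
    · intro x _ y _ hx hy κ hκ
      rw [mul_add, add_mul, hx κ hκ, hy κ hκ, add_zero]
    · intro x _ y _ hx hy ν hν κ hκ
      rw [add_mul, add_mul, hx ν hν κ hκ, hy ν hν κ hκ, add_zero]
  have cm : ∀ ν ∈ M, ∀ μ ∈ M, h • (ν * μ - μ * ν) ∈ M ∧ 1 + h • (ν * μ - μ * ν) ∈ D := by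
    have ad : ∀ a ∈ M, ∀ b ∈ M, ∀ κ, h • (a * b - b * a) ∈ M ∧ 1 + h • (a * b - b * a) ∈ D → κ ∈ M ∧ 1 + κ ∈ D →
        h • (a * b - b * a) + κ ∈ M ∧ 1 + (h • (a * b - b * a) + κ) ∈ D := by
      intro a ha b hb κ k1 k2
      refine ⟨add_mem k1.1 k2.1, ?_⟩
      have := mul_mem k1.2 k2.2
      rwa [add_mul, one_mul, mul_add, mul_one, smul_mul_assoc, sub_mul, m3 a ha b hb κ k2.1, m3 b hb a ha κ k2.1,
        sub_zero, smul_zero, add_zero, add_assoc, add_comm κ] at this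
    refine ind _ (fun μ _ => by simpa using ⟨zero_mem M, one_mem D⟩) (fun s α ha => ind _
      (by simpa using ⟨zero_mem M, one_mem D⟩) (fun t β hb => ?_) ?_) ?_
    · have e : h • (cz ξ s α * cz ξ t β - cz ξ t β * cz ξ s α) =
          cz ξ s (h • (α * cz ξ (t - s) β - cz ξ (t - s) β * α)) := by
        rw [cz_smul, cz_sub, cz_mul hξ, cz_mul hξ, cz_cz hξ, add_sub_cancel]
      have m := Y.smul_mem h (br (t - s) α ha β hb)
      rw [e]
      exact ⟨gen _ _ m, cz_mem hξ hD _ (q.mem _ m)⟩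
    · intro x hx y hy ix iy
      convert ad _ (gen s α ha) x hx _ ix iy using 2 <;> simp only [mul_add, add_mul] <;> module
    · intro x hx y hy ix iy μ hμ
      convert ad x hx μ hμ _ (ix μ hμ) (iy μ hμ) using 2 <;> simp only [mul_add, add_mul] <;> module
  have ex : ∀ μ ∈ M, 1 + μ + h • (μ * μ) ∈ D := by
    refine ind _ (by simpa using one_mem D) (fun s α ha => ?_) fun μ hμ ν hν iμ iν => ?_
    · rw [← cz_mul hξ, q.sq α ha α ha, cz, cz, mul_zero, zero_mul, smul_zero, add_zero]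
      exact cz_mem hξ hD s (q.mem α ha)
    · convert mul_mem (mul_mem iμ iν) (cm ν hν μ hμ).2 using 1
      simp only [mul_add, add_mul, mul_sub, one_mul, mul_one, mul_smul_comm, smul_mul_assoc, ← mul_assoc,
        m3 μ hμ μ hμ μ hμ, m3 μ hμ μ hμ ν hν, m3 μ hμ ν hν μ hμ, m3 μ hμ ν hν ν hν, m3 ν hν μ hμ μ hμ,
        m3 ν hν μ hμ ν hν, m3 ν hν ν hν μ hμ, m3 ν hν ν hν ν hν, zero_mul, smul_zero, sub_zero, add_zero]
      match_scalars <;> first | rfl | linear_combination hh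
  have sq := lim_mul (a := up (-ξ)) (b' := up ξ) (up_mul hξ) q.sq
  refine ⟨sq, fun α ha => ?_⟩
  have := ex α (lim_le (fun β hb => ⟨?_, ?_, ?_⟩) ha)
  · rwa [sq α ha α ha, smul_zero, add_zero] at this
  · have := gen 0 β hb
    rwa [cz, zero_smul, sub_zero, add_zero, one_mul, mul_one] at this
  · convert add_mem (gen 1 _ (Y.smul_mem h hb)) (gen (-1) _ (Y.smul_mem (-h) hb)) using 1
    rw [cz_smul, cz_smul, cz_eq, cz_eq]
    match_scalars <;> first | ring1 | linear_combination hh | linear_combination -hh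
  · convert add_mem (add_mem (gen 1 _ (Y.smul_mem h hb)) (gen (-1) _ (Y.smul_mem h hb)))
      (gen 0 _ (Y.smul_mem (-1) hb)) using 1
    rw [cz_smul, cz_smul, cz_smul, cz_eq, cz_eq, cz_eq]
    match_scalars <;> first | ring1 | linear_combination hh | linear_combination -hh

variable [FiniteDimensional F R]

theorem le_lim (hξ : ξ * ξ = 0) (Y : Submodule F R) : finrank F Y ≤ finrank F (lim (up (-ξ)) (up ξ) Y) :=
  finrank_le_lim (fun y hy => by
    have : y = up ξ * (up (-ξ) * y * up ξ) * up (-ξ) := by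
      rw [← mul_assoc, ← mul_assoc, up_mul hξ, one_mul, mul_assoc, up_mul hξ, mul_one]
    rw [this, hy, mul_zero, zero_mul]) Y

theorem ann_le_lim (hξ : ξ * ξ = 0) (Y : Submodule F R) :
    finrank F (ann Y) ≤ finrank F (ann (lim (up (-ξ)) (up ξ) Y)) :=
  (finrank_le_lim (a := up (-ξ)) (b := 1) (fun y hy => by
    have : y = up ξ * (up (-ξ) * y * 1) := by rw [mul_one, ← mul_assoc, up_mul hξ, one_mul]
    rw [this, hy, mul_zero]) (ann Y)).trans (Submodule.finrank_mono fun c hc α ha =>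
      lim_mul (Y := Y) (Y' := ann Y) (up_mul hξ) (fun y hy y' hy' => hy' y hy) α ha c hc)

theorem sum_lt_lim (h2 : (2 : F) ≠ 0) (hξ : ξ * ξ = 0) {Fl : ℕ → Submodule F R} (anti : Antitone Fl) {N : ℕ}
    (hN : Fl N = ⊥) (h0 : Y ≤ Fl 0) (hs : ∀ i, ∀ φ ∈ Fl i, ξ * φ ∈ Fl (i + 1) ∧ φ * ξ ∈ Fl (i + 1))
    (hn : ¬ ∀ α ∈ Y, α * ξ - ξ * α ∈ Y) :
    ∑ i ∈ Finset.range (N + 1), finrank F ↥(Y ⊓ Fl i) <
      ∑ i ∈ Finset.range (N + 1), finrank F ↥(lim (up (-ξ)) (up ξ) Y ⊓ Fl i) := by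
  have s1 : ∀ i, ∀ φ ∈ Fl i, φ * ξ - ξ * φ ∈ Fl (i + 1) := fun i φ h => sub_mem (hs i φ h).2 (hs i φ h).1
  have s2 : ∀ i, ∀ φ ∈ Fl i, ξ * φ * ξ ∈ Fl (i + 1) := fun i φ h =>
    anti (Nat.le_succ _) (hs _ _ (hs i φ h).1).2
  refine Finset.sum_lt_sum (fun i _ => (le_lim hξ (Y ⊓ Fl i)).trans (Submodule.finrank_mono (le_inf (lim_mono _ _ inf_le_left)
    fun c hc => lim_le (Y := Y ⊓ Fl i) (M := (Fl i).toAddSubmonoid) (fun α ha => ⟨ha.2, anti (Nat.le_succ _) (s1 i α ha.2),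
      (Fl i).neg_mem (anti (Nat.le_succ _) (s2 i α ha.2))⟩) hc))) ?_
  classical
  have ex : ∃ j, ∀ α ∈ Y ⊓ Fl j, α * ξ - ξ * α ∈ Y := ⟨N, by simp [hN]⟩
  have j0 : Nat.find ex ≠ 0 := fun e => hn fun α ha => Nat.find_spec ex α (e ▸ ⟨ha, h0 ha⟩)
  obtain ⟨i, hi⟩ := Nat.exists_eq_succ_of_ne_zero j0
  have p1 := Nat.find_spec ex
  have p2 := Nat.find_min ex (m := i) (by omega)
  have p3 : Nat.find ex ≤ N := Nat.find_min' ex (by simp [hN])
  rw [hi] at p1 p3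
  refine ⟨i + 1, Finset.mem_range.2 (by omega), Submodule.finrank_lt_finrank_of_lt ?_⟩
  have d1 : ∀ α ∈ Y ⊓ Fl (i + 1), α * ξ - ξ * α ∈ Y ⊓ Fl (i + 1) := fun α ha =>
    ⟨p1 α ha, anti (Nat.le_succ _) (s1 _ α ha.2)⟩
  have z1 : lim (up (-ξ)) (up ξ) (Y ⊓ Fl (i + 1)) = Y ⊓ Fl (i + 1) := by
    refine Submodule.eq_of_le_of_finrank_le (fun c hc => lim_le (M := (Y ⊓ Fl (i + 1)).toAddSubmonoid)
      (fun α ha => ⟨ha, d1 α ha, ?_⟩) hc) (le_lim hξ _)
    have := (Y ⊓ Fl (i + 1)).smul_mem (2⁻¹ : F) (d1 _ (d1 α ha))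
    rw [sub_mul, mul_sub, mul_assoc α, hξ, ← mul_assoc, ← mul_assoc, hξ, mul_zero, zero_mul] at this
    change _ ∈ Y ⊓ Fl (i + 1)
    convert this using 1
    match_scalars
    field_simp
    norm_num
  push Not at p2
  obtain ⟨α, ha, hb⟩ := p2
  refine lt_of_le_of_ne (le_inf (z1.ge.trans (lim_mono _ _ inf_le_left)) inf_le_right) fun e => hb ?_
  have m2 : ξ * α * ξ ∈ Y :=
    (neg_mem_iff).1 (e.ge ⟨mem_lim_two ha.1, (Fl _).neg_mem (s2 i α ha.2)⟩).1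
  exact (e.ge ⟨mem_lim_one hξ ha.1 m2, s1 i α ha.2⟩).1

end Cfsg.Agent.H67Off
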