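import Mathlib
import Cfsg.Agent.H67.PGraph2
import Cfsg.Agent.H52.Zsig

/-! Elements of order `q ^ (n / 2) ± 1` in linear and unitary groups. -/

set_option autoImplicit false

namespace Cfsg.Agent.H67

open Polynomial

theorem gcd_dvd_half_iff {m D : ℕ} (hm : m ≠ 0) (hD : D ≠ 0) :
    Nat.gcd (2 * m) D ∣ m ↔ padicValNat 2 D < padicValNat 2 (2 * m) := by
  have h1 : padicValNat 2 (2 * m) = padicValNat 2 m + 1 := by
    rw [padicValNat.mul two_ne_zero hm, padicValNat_self, add_comm]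
  constructor
  · intro h
    by_contra! h2
    have := (padicValNat_dvd_iff_le hm).1
      ((Nat.dvd_gcd pow_padicValNat_dvd ((padicValNat_dvd_iff_le hD).2 h2)).trans h)
    omega
  · intro h
    obtain ⟨u, hu⟩ := Nat.gcd_dvd_left (2 * m) D
    rcases Nat.even_or_odd u with ⟨v, rfl⟩ | hu'
    · exact ⟨v, by linarith⟩
    · have h2 : 2 ^ padicValNat 2 (2 * m) ∣ Nat.gcd (2 * m) D :=
        ((Nat.coprime_two_left.2 hu').pow_left _).dvd_of_dvd_mul_right (hu ▸ pow_padicValNat_dvd)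
      have := (padicValNat_dvd_iff_le hD).1 (h2.trans (Nat.gcd_dvd_right _ _))
      omega

theorem sub_one_dvd_geom_sub (Q : ℤ) (n : ℕ) : Q - 1 ∣ ∑ i ∈ Finset.range n, Q ^ i - n := by
  rw [show (n : ℤ) = ∑ i ∈ Finset.range n, 1 ^ i by simp, ← Finset.sum_sub_distrib]
  exact Finset.dvd_sum fun i _ => sub_dvd_pow_sub_pow _ _ _

variable {K : Type*} [Field K] {Ω : Type*} [Field Ω] [Algebra K Ω] [IsAlgClosed Ω]

theorem zpow_eq_one_iff' (x : Ω) (l : ℤ) : x ^ l = 1 ↔ (orderOf x : ℤ) ∣ l :=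
  (IsPrimitiveRoot.orderOf x).zpow_eq_one_iff_dvd l

theorem zpow_iterate' (Q : ℤ) (i : ℕ) (x : Ω) : (fun y : Ω => y ^ Q)^[i] x = x ^ Q ^ i := by
  induction i with
  | zero => simp
  | succ i ih => rw [Function.iterate_succ_apply', ih, ← zpow_mul, pow_succ]

theorem exists_order_half_iff {G : Type*} [Group G] [Finite G] {m : ℕ} (hm : 0 < m)
    (ρ : G →* Matrix (Fin (2 * m)) (Fin (2 * m)) K) (hρ : Function.Injective ρ)
    (hZ : ∀ g, g ∈ Subgroup.center G ↔ ∃ c : K, ρ g = c • 1) (p : ℕ) [hp : Fact p.Prime] [CharP K p]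
    {Q : ℤ} (hQ : (p : ℤ) ∣ Q) (hinj : Function.Injective fun x : Ω => x ^ Q)
    (hst : ∀ g, (ev Ω (ρ g)).map (fun x => x ^ Q) = ev Ω (ρ g)) (hdet : ∀ g, (ρ g).det = 1)
    (hex : ∀ s : Multiset Ω, s.map (fun x => x ^ Q) = s → s.card = 2 * m → s.prod = 1 →
      ∃ g, ev Ω (ρ g) = s) (hfix : ∀ x : Ω, x ^ Q = x → ∃ c, algebraMap K Ω c = x)
    {r : ℕ} (hr : r.Prime) (hrQ : orderOf (Q : ZMod r) = 2 * m) :
    (∃ g : G ⧸ Subgroup.center G, orderOf g = (Q ^ m + 1).natAbs) ↔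
      padicValNat 2 (Q - 1).natAbs < padicValNat 2 (2 * m) := by
  classical
  haveI := Fact.mk hr
  have hc : ∀ {a : ℤ}, Q ∣ a - 1 → a.natAbs.Coprime p := fun {a} h =>
    (hp.out.coprime_iff_not_dvd.2 fun h' => hp.out.not_dvd_one (by
      simpa using Int.natAbs_dvd_natAbs.2 (dvd_sub (Int.natCast_dvd.2 h') (hQ.trans h)))).symm
  have hS : ∀ n, 0 < n → (∑ i ∈ Finset.range n, Q ^ i).natAbs.Coprime p := fun n hn => hc (by
    obtain ⟨k, rfl⟩ := Nat.exists_eq_add_of_le' hn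
    rw [Finset.sum_range_succ', pow_zero, add_sub_cancel_right]
    exact Finset.dvd_sum fun i _ => dvd_pow_self Q i.succ_ne_zero)
  have hD : (Q - 1).natAbs.Coprime p := by
    rw [← Int.natAbs_neg]; exact hc (by simp)
  have hN : (Q ^ m + 1).natAbs.Coprime p := hc (by simpa using dvd_pow_self Q hm.ne')
  have h0 : ∀ {a : ℕ}, a.Coprime p → a ≠ 0 := by
    rintro _ h rfl
    exact hp.out.one_lt.ne' (by simpa using h)
  have h1 : ∑ i ∈ Finset.range (2 * m), Q ^ i = (Q ^ m + 1) * ∑ i ∈ Finset.range m, Q ^ i := by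
    rw [two_mul, Finset.sum_range_add]
    simp only [pow_add, ← Finset.mul_sum]
    ring
  have h2 : ∀ n : ℕ, ((Nat.gcd (2 * m) (Q - 1).natAbs : ℕ) : ℤ) ∣ ∑ i ∈ Finset.range n, Q ^ i ↔
      Nat.gcd (2 * m) (Q - 1).natAbs ∣ n := fun n => by
    rw [← Int.natCast_dvd_natCast, dvd_iff_dvd_of_dvd_sub ((Int.natCast_dvd.2
      (Nat.gcd_dvd_right _ _)).trans (sub_one_dvd_geom_sub Q n))]
  rw [← gcd_dvd_half_iff hm.ne' (h0 hD), ← h2]
  constructor
  · rintro ⟨g, hg⟩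
    obtain ⟨g, rfl⟩ := QuotientGroup.mk_surjective g
    obtain ⟨c, hc⟩ := (orderOf_mk_dvd_iff ρ hZ g _).1 hg.dvd
    have hx0 := fun x => ne_zero_of_mem_ev (Ω := Ω) (x := x) ((Group.isUnit g).map ρ)
    have h3 : ∀ x ∈ ev Ω (ρ g), x ^ ((Q ^ m + 1).natAbs * (Q - 1).natAbs) = 1 := fun x hx => by
      have h3 := pow_eq_of_mem_ev hc (hst g ▸ Multiset.mem_map_of_mem _ hx)
      rw [← pow_eq_of_mem_ev hc hx, ← zpow_natCast, ← zpow_natCast, ← zpow_mul,
        ← div_eq_one_iff_eq (zpow_ne_zero _ (hx0 x hx)), ← zpow_sub₀ (hx0 x hx),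
        ← sub_one_mul, zpow_eq_one_iff', ← Int.dvd_natAbs] at h3
      rwa [Int.natCast_dvd_natCast, Int.natAbs_mul, Int.natAbs_natCast, mul_comm,
        orderOf_dvd_iff_pow_eq_one] at h3
    have h4 : H66.IsSS (ρ g) := by
      obtain ⟨x, hx⟩ := Multiset.card_pos_iff_exists_mem.1
        (show 0 < (ev Ω (ρ g)).card by simp [card_ev, hm])
      refine H66.isSS_of_pow_eq_one (H66.natCast_ne_zero_of_coprime p (hN.mul_left hD)) ?_
      rw [pow_mul, hc, _root_.smul_pow, one_pow, (algebraMap K Ω).injective (a₁ := c ^ _) (a₂ := 1) (by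
        rw [map_pow, ← pow_eq_of_mem_ev hc hx, ← pow_mul, h3 x hx, map_one]), one_smul]
    obtain ⟨N, hN'⟩ : r ∣ (Q ^ m + 1).natAbs := by
      rw [← Int.natCast_dvd, ← ZMod.intCast_zmod_eq_zero_iff_dvd]
      push_cast
      refine add_eq_zero_iff_eq_neg.2 ((sq_eq_one_iff.1 ?_).resolve_left
        (pow_ne_one_of_lt_orderOf hm.ne' (by omega)))
      rw [← pow_mul', ← hrQ, pow_orderOf_eq_one]
    obtain ⟨x, hx, hx'⟩ : ∃ x ∈ ev Ω (ρ g), x ^ (N * (Q - 1).natAbs) ≠ 1 := by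
      by_contra! h5
      have h6 := (orderOf_mk_dvd_iff ρ hZ g _).2 ⟨1, (IsSS_pow_eq_one h4 h5).trans (one_smul _ _).symm⟩
      rw [hg, hN', mul_comm, Nat.mul_dvd_mul_iff_left (Nat.pos_of_mul_pos_left
        (hN' ▸ Nat.pos_of_ne_zero (h0 hN))), ← Int.natCast_dvd,
        ← ZMod.intCast_zmod_eq_zero_iff_dvd, Int.cast_sub, Int.cast_one, sub_eq_zero] at h6
      simp [h6] at hrQ
      omega
    have h5 := mem_periodicPts_of_map_eq hinj (hst g) hx
    have h6 : orb (fun y : Ω => y ^ Q) x ≤ ev Ω (ρ g) :=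
      (Multiset.le_iff_subset (nodup_orb x)).2 fun y hy => by
        obtain ⟨i, rfl⟩ := (mem_orb_iff h5 y).1 hy
        exact iterate_mem_of_map_eq (hst g) hx i
    have h7 : 2 * m ∣ Function.minimalPeriod (fun y : Ω => y ^ Q) x := by
      have h7 := (Function.isPeriodicPt_minimalPeriod (fun y : Ω => y ^ Q) x).eq
      rw [zpow_iterate', ← div_eq_one_iff_eq (hx0 x hx), div_eq_mul_inv, ← zpow_sub_one₀ (hx0 x hx)] at h7
      rw [← hrQ, orderOf_dvd_iff_pow_eq_one, ← sub_eq_zero, ← Int.cast_pow, ← Int.cast_one,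
        ← Int.cast_sub, ZMod.intCast_zmod_eq_zero_iff_dvd, ← orderOf_eq_prime (p := r)
          (x := x ^ (N * (Q - 1).natAbs)) (by
            rw [← pow_mul', ← mul_assoc, ← hN', h3 x hx]) hx', ← zpow_eq_one_iff', ← zpow_natCast,
        ← zpow_mul, mul_comm, zpow_mul, h7, one_zpow]
    have h8 : orb (fun y : Ω => y ^ Q) x = ev Ω (ρ g) := Multiset.eq_of_le_of_card_le h6 (by
      rw [card_ev, card_orb, Fintype.card_fin]
      exact Nat.le_of_dvd (Function.minimalPeriod_pos_of_mem_periodicPts h5) h7)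
    have h9 := (eq_range_map_iterate hinj (hst g) hx fun y hy => (mem_orb_iff h5 y).1 (h8 ▸ hy)).1
    rw [card_ev, Fintype.card_fin] at h9
    have h10 := prod_ev (Ω := Ω) (ρ g)
    rw [h9, prod_iterate_zpow _ _ (hx0 x hx), hdet, map_one] at h10
    obtain ⟨k, hk⟩ := (h2 _).2 (Nat.gcd_dvd_left _ _)
    obtain ⟨e, he⟩ := Int.natCast_dvd.2 (Nat.gcd_dvd_right (2 * m) (Q - 1).natAbs)
    have h11 : (x ^ k.natAbs) ^ Q = x ^ k.natAbs := by
      rw [← div_eq_one_iff_eq (pow_ne_zero _ (hx0 x hx)), div_eq_mul_inv, ← zpow_sub_one₀ (pow_ne_zero _ (hx0 x hx)),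
        ← zpow_natCast, ← zpow_mul, zpow_eq_one_iff']
      refine ((zpow_eq_one_iff' _ _).1 h10).trans ?_
      rw [hk, mul_comm]
      exact mul_dvd_mul (Int.dvd_natAbs.2 dvd_rfl) ⟨e, he⟩
    obtain ⟨c, hc⟩ := hfix _ h11
    have h12 := (orderOf_mk_dvd_iff ρ hZ g k.natAbs).2 ⟨c, (IsSS_pow_eq_smul_iff (Ω := Ω) h4 _ _).2
      fun y hy => by
        obtain ⟨i, rfl⟩ := (mem_orb_iff h5 y).1 (h8 ▸ hy)
        rw [hc, ← Function.iterate_fixed (f := fun y : Ω => y ^ Q) h11 i, zpow_iterate', zpow_iterate',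
          ← zpow_natCast, ← zpow_natCast, ← zpow_mul, ← zpow_mul, mul_comm]⟩
    rw [hg, Int.natAbs_dvd_natAbs] at h12
    obtain ⟨j, rfl⟩ := h12
    exact ⟨j, mul_left_cancel₀ (Int.natAbs_ne_zero.1 (h0 hN)) (by rw [← h1, hk]; ring)⟩
  · intro h
    obtain ⟨δ, hδ⟩ := exists_root' K Ω p (hS (2 * m) (by omega))
    have h3 := (hδ _).2 dvd_rfl
    have hδ0 : δ ≠ 0 := by rintro rfl; simp [h0 (hS (2 * m) (by omega))] at h3
    replace hδ : ∀ k : ℤ, δ ^ k = 1 ↔ ∑ i ∈ Finset.range (2 * m), Q ^ i ∣ k := fun k => by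
      rw [zpow_eq_one_iff', ← Int.natAbs_dvd_natAbs, ← Int.natAbs_dvd_natAbs (a := ∑ _ ∈ _, _),
        ← hδ, Int.natAbs_natCast, orderOf_dvd_iff_pow_eq_one]
    obtain ⟨g, hg⟩ := hex _ (map_range_iterate (a := δ) (d := 2 * m) (by
      rw [zpow_iterate', ← div_eq_one_iff_eq hδ0, div_eq_mul_inv, ← zpow_sub_one₀ hδ0, hδ, ← geom_sum_mul]
      exact dvd_mul_right _ _)) (by simp) (by rw [prod_iterate_zpow _ _ hδ0, hδ])
    have h4 := pow_orderOf_mk_eq ρ hZ (x := δ ^ Q) (y := δ)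
      (hg ▸ Multiset.mem_map.2 ⟨1, Multiset.mem_range.2 (by omega), rfl⟩)
      (hg ▸ Multiset.mem_map.2 ⟨0, Multiset.mem_range.2 (by omega), rfl⟩)
    refine mem_range_orderOf_of_dvd (QuotientGroup.mk g) ?_
    generalize orderOf (QuotientGroup.mk g : G ⧸ Subgroup.center G) = k at h4 ⊢
    rw [← zpow_natCast, ← zpow_natCast, ← zpow_mul, ← div_eq_one_iff_eq (zpow_ne_zero _ hδ0),
      ← zpow_sub₀ hδ0, ← sub_one_mul, hδ] at h4
    have h5 : ∑ i ∈ Finset.range (2 * m), Q ^ i ∣ (2 * m : ℕ) * k := by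
      obtain ⟨e, he⟩ := sub_one_dvd_geom_sub Q (2 * m)
      rw [← sub_sub_cancel (∑ i ∈ Finset.range (2 * m), Q ^ i) (2 * m : ℕ), he, sub_mul,
        mul_right_comm]
      exact dvd_sub (dvd_mul_right _ _) (h4.mul_right _)
    have h6 : ∑ i ∈ Finset.range (2 * m), Q ^ i ∣ (Nat.gcd (2 * m) (Q - 1).natAbs : ℕ) * k := by
      rw [← Int.natAbs_dvd_natAbs] at h4 h5 ⊢
      simp only [Int.natAbs_mul, Int.natAbs_natCast] at h4 h5 ⊢
      rw [← Nat.gcd_mul_right]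
      exact Nat.dvd_gcd h5 h4
    rw [← Int.natAbs_natCast k, Int.natAbs_dvd_natAbs, ← mul_dvd_mul_iff_right
      (Int.natAbs_ne_zero.1 (h0 (hS m hm))), ← h1, mul_comm (k : ℤ)]
    exact h6.trans (mul_dvd_mul_right h _)

end Cfsg.Agent.H67
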