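import Mathlib

/-! Weight spaces of families of operators. -/

set_option autoImplicit false

namespace Cfsg.Agent.H67

open Module Polynomial

variable {K V : Type*} [Field K] [AddCommGroup V] [Module K V] {J : Type*}

/-- the joint eigenspace -/
def wsp (f : J → End K V) (χ : J → K) : Submodule K V := ⨅ j, (f j).eigenspace (χ j)

theorem mem_wsp {f : J → End K V} {χ : J → K} {v : V} : v ∈ wsp f χ ↔ ∀ j, f j v = χ j • v := by
  simp [wsp, End.mem_eigenspace_iff]

theorem iSupIndep_wsp (f : J → End K V) : iSupIndep (wsp f) := by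
  classical
  rw [iSupIndep_iff_finsetSum_eq_zero_imp_eq_zero]
  intro s
  induction s using Finset.induction_on with
  | empty => simp
  | insert χ s hχ ih =>
    intro v hv h0
    rw [Finset.sum_insert hχ] at h0
    have h1 : ∀ ψ ∈ s, v ψ = 0 := fun ψ hψ => by
      obtain ⟨j, hj⟩ := Function.ne_iff.1 (show ψ ≠ χ from fun h => hχ (h ▸ hψ))
      have h2 := congrArg (f j - χ j • (1 : End K V)) h0
      simp only [map_add, map_sum, map_zero, LinearMap.sub_apply, LinearMap.smul_apply,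
        End.one_apply, mem_wsp.1 (hv χ (by simp)) j, sub_self, zero_add] at h2
      refine (smul_eq_zero.1 (ih (fun φ => (φ j - χ j) • v φ)
        (fun φ hφ => Submodule.smul_mem _ _ (hv φ (by simp [hφ]))) ?_ ψ hψ)).resolve_left
        (sub_ne_zero.2 hj)
      rw [← h2]
      exact Finset.sum_congr rfl fun φ hφ => by rw [mem_wsp.1 (hv φ (by simp [hφ])) j, sub_smul]
    simpa [Finset.sum_eq_zero h1] using ⟨by simpa [Finset.sum_eq_zero h1] using h0, h1⟩

variable [FiniteDimensional K V]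

theorem sum_finrank_wsp_le {ι : Type*} [Fintype ι] (f : J → End K V) {χ : ι → J → K}
    (hχ : Function.Injective χ) : ∑ i, finrank K (wsp f (χ i)) ≤ finrank K V := by
  classical
  rw [← finrank_directSum]
  exact LinearMap.finrank_le_finrank_of_injective
    ((iSupIndep_wsp f).comp hχ).dfinsupp_lsum_injective

theorem card_le_of_wsp {ι : Type*} [Finite ι] (f : J → End K V) {χ : ι → J → K}
    (hχ : Function.Injective χ) (h : ∀ i, ∃ v ≠ 0, ∀ j, f j v = χ i j • v) :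
    Nat.card ι ≤ finrank K V := by
  have := Fintype.ofFinite ι
  refine le_trans ?_ (sum_finrank_wsp_le f hχ)
  rw [Nat.card_eq_fintype_card, Fintype.card_eq_sum_ones]
  refine Finset.sum_le_sum fun i _ => Submodule.one_le_finrank_iff.2 ?_
  obtain ⟨v, h1, h2⟩ := h i
  exact (Submodule.ne_bot_iff _).2 ⟨v, mem_wsp.2 h2, h1⟩

omit [FiniteDimensional K V] in
theorem comm_of_unip {U : Submodule K V} {a b : End K V} (ha : ∀ v, a v - v ∈ U)
    (hb : ∀ v, b v - v ∈ U) (ha' : ∀ u ∈ U, a u = u) (hb' : ∀ u ∈ U, b u = u) : a * b = b * a := by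
  ext v
  have h1 := ha' _ (hb v)
  have h2 := hb' _ (ha v)
  rw [map_sub] at h1 h2
  rw [End.mul_apply, End.mul_apply, sub_eq_iff_eq_add.1 h1, sub_eq_iff_eq_add.1 h2]
  abel

variable [IsAlgClosed K]

theorem exists_eigvec_mem {f : End K V} {U : Submodule K V} (hU : U ≠ ⊥) (h : ∀ u ∈ U, f u ∈ U) :
    ∃ c : K, ∃ v ∈ U, v ≠ 0 ∧ f v = c • v := by
  haveI := Submodule.nontrivial_iff_ne_bot.2 hU
  obtain ⟨c, hc⟩ := End.exists_eigenvalue (f.restrict h)
  obtain ⟨v, hv⟩ := hc.exists_hasEigenvector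
  exact ⟨c, v, v.2, fun h => hv.2 (Subtype.ext h), congrArg Subtype.val hv.apply_eq_smul⟩

theorem exists_common_eigvec [Nontrivial V] {f : J → End K V} (hf : ∀ i j, Commute (f i) (f j)) :
    ∃ v ≠ 0, ∃ χ : J → K, ∀ j, f j v = χ j • v := by
  obtain ⟨U, ⟨h1, h2⟩, h3⟩ := exists_minimal_of_wellFoundedLT
    (fun U : Submodule K V => U ≠ ⊥ ∧ ∀ j, ∀ u ∈ U, f j u ∈ U) ⟨⊤, top_ne_bot, by simp⟩
  obtain ⟨v, hv, hv0⟩ := (Submodule.ne_bot_iff _).1 h1
  refine ⟨v, hv0, (Classical.skolem (p := fun j (c : K) => f j v = c • v)).1 fun j => ?_⟩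
  obtain ⟨c, w, h4, h5, h6⟩ := exists_eigvec_mem h1 (h2 j)
  refine ⟨c, End.mem_eigenspace_iff.1 (h3 (y := U ⊓ (f j).eigenspace c) ⟨(Submodule.ne_bot_iff _).2
    ⟨w, ⟨h4, End.mem_eigenspace_iff.2 h6⟩, h5⟩, fun i u hu => ⟨h2 i u hu.1, ?_⟩⟩ inf_le_left hv).2⟩
  exact End.mapsTo_genEigenspace_of_comm (hf j i) c 1 hu.2

theorem exists_eig_of_mul_ne {f g : End K V} {l : ℕ} (hl : (l : K) ≠ 0) (hf : f ^ l = 1)
    (h : g * (f - 1) ≠ 0) : ∃ (c : K) (v : V), c ≠ 1 ∧ c ^ l = 1 ∧ f v = c • v ∧ g v ≠ 0 := by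
  by_contra! h1
  have h2 := (End.isSemisimple_of_squarefree_aeval_eq_zero (f := f)
    (separable_X_pow_sub_C (1 : K) hl one_ne_zero).squarefree (by simp [hf])).iSup_eigenspace_eq_top
  refine h (LinearMap.ker_eq_top.1 (top_le_iff.1 (h2.ge.trans (iSup_le fun c v hv => ?_))))
  have h3 := End.mem_eigenspace_iff.1 hv
  by_cases h4 : v = 0
  · simp [h4]
  have h5 := End.HasEigenvector.pow_apply ⟨hv, h4⟩ l
  by_cases h6 : c = 1
  · simp [h3, h6]
  · simp [h3, h1 c v h6 (smul_left_injective K h4 (by simpa [hf] using h5.symm)) h3]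

end Cfsg.Agent.H67
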